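import Mathlib

/-!
# S5719, sporadic rows (helper677): a proper subgroup containing the centralisers of its involutions

* `all_conj` : `A` proper, with an involution, `C_T(t) ≤ A` for every involution `t ∈ A`, `T` simple:
  all involutions of `T` are conjugate;
* `mem_of_conj_mem` : if moreover `N_T(⟨I(A)⟩) ≤ A` then `t, g⁻¹ t g ∈ A` implies `g ∈ A`.
-/

set_option autoImplicit false
set_option linter.unusedSectionVars false

namespace Cfsg.Agent.H677.SE

open Subgroup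

variable {T : Type*} [Group T]

theorem pow_conj {s u : T} (hs : s * s = 1) (hu : s * u * s = u⁻¹) (k : ℕ) : u ^ k * s * (u ^ k)⁻¹ = s * (u ^ (2 * k))⁻¹ := by
  have hsi : s⁻¹ = s := inv_eq_of_mul_eq_one_right hs
  have h1 : s * u ^ k * s = (u ^ k)⁻¹ := by
    have h2 : s * u ^ k * s⁻¹ = (s * u * s⁻¹) ^ k := (conj_pow).symm
    rw [hsi] at h2
    rw [h2, hu, inv_pow]
  have h3 : u ^ k * s = s * (u ^ k)⁻¹ := by
    have h4 : s * (s * u ^ k * s) = u ^ k * s := by
      rw [← mul_assoc, ← mul_assoc, hs, one_mul]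
    rw [← h4, h1]
  rw [h3, mul_assoc, two_mul, pow_add, mul_inv_rev]

/-- two involutions with product of odd order are conjugate in the group they generate -/
theorem conj_of_odd {s t : T} (hs : s * s = 1) (ht : t * t = 1) (hodd : Odd (orderOf (s * t))) :
    ∃ k : ℕ, (s * t) ^ k * s * ((s * t) ^ k)⁻¹ = t := by
  obtain ⟨m, hm⟩ := hodd
  refine ⟨m, ?_⟩
  have hsi : s⁻¹ = s := inv_eq_of_mul_eq_one_right hs
  have hti : t⁻¹ = t := inv_eq_of_mul_eq_one_right ht
  have hu : s * (s * t) * s = (s * t)⁻¹ := by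
    rw [← mul_assoc, hs, one_mul, mul_inv_rev, hsi, hti]
  rw [pow_conj hs hu m]
  have h1 : (s * t) ^ (2 * m) * (s * t) = 1 := by
    rw [← pow_succ, ← hm, pow_orderOf_eq_one]
  have h2 : ((s * t) ^ (2 * m))⁻¹ = s * t := inv_eq_of_mul_eq_one_right h1
  rw [h2, ← mul_assoc, hs, one_mul]

/-- two involutions with product of even order are centralised by an involution -/
theorem cent_of_even [Finite T] {s t : T} (hs : s * s = 1) (ht : t * t = 1) (heven : Even (orderOf (s * t))) :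
    ∃ z : T, orderOf z = 2 ∧ z * s = s * z ∧ z * t = t * z := by
  obtain ⟨m, hm⟩ := heven
  have hpos : 0 < orderOf (s * t) := orderOf_pos _
  have hsi : s⁻¹ = s := inv_eq_of_mul_eq_one_right hs
  have hti : t⁻¹ = t := inv_eq_of_mul_eq_one_right ht
  have hm2 : orderOf (s * t) = 2 * m := by omega
  have hord : orderOf ((s * t) ^ m) = 2 := by
    rw [orderOf_pow, hm2]
    have : Nat.gcd (2 * m) m = m := Nat.gcd_eq_right (Dvd.intro_left 2 rfl)
    rw [this]
    exact Nat.mul_div_cancel 2 (by omega)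
  have hzz : (s * t) ^ m * (s * t) ^ m = 1 := by
    rw [← pow_add, ← two_mul, ← hm2, pow_orderOf_eq_one]
  have hzi : ((s * t) ^ m)⁻¹ = (s * t) ^ m := inv_eq_of_mul_eq_one_right hzz
  have hu : s * (s * t) * s = (s * t)⁻¹ := by
    rw [← mul_assoc, hs, one_mul, mul_inv_rev, hsi, hti]
  have h1 : s * (s * t) ^ m * s = (s * t) ^ m := by
    have h2 : s * (s * t) ^ m * s⁻¹ = (s * (s * t) * s⁻¹) ^ m := (conj_pow).symm
    rw [hsi] at h2
    rw [h2, hu, inv_pow, hzi]
  have hcs : (s * t) ^ m * s = s * (s * t) ^ m := by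
    have h4 : s * (s * (s * t) ^ m * s) = (s * t) ^ m * s := by
      rw [← mul_assoc, ← mul_assoc, hs, one_mul]
    rw [← h4, h1]
  refine ⟨(s * t) ^ m, hord, hcs, ?_⟩
  have h5 : t = s * (s * t) := by rw [← mul_assoc, hs, one_mul]
  have h6 : (s * t) ^ m * (s * t) = (s * t) * (s * t) ^ m := (pow_mul_comm' _ _)
  calc (s * t) ^ m * t = (s * t) ^ m * (s * (s * t)) := by rw [← h5]
    _ = ((s * t) ^ m * s) * (s * t) := by rw [mul_assoc]
    _ = s * ((s * t) ^ m * (s * t)) := by rw [hcs, mul_assoc]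
    _ = s * ((s * t) * (s * t) ^ m) := by rw [h6]
    _ = t * (s * t) ^ m := by rw [← mul_assoc, ← h5]

theorem sq_of_ord {t : T} (h : orderOf t = 2) : t * t = 1 := by
  rw [← sq, ← h, pow_orderOf_eq_one]

/-- the dihedral step: `s ∉ A`, `t ∈ A`. -/
theorem conj_step [Finite T] {A : Subgroup T} (hc : ∀ t ∈ A, orderOf t = 2 → centralizer ({t} : Set T) ≤ A)
    {s t : T} (hs : orderOf s = 2) (hsA : s ∉ A) (ht : orderOf t = 2) (htA : t ∈ A) :
    ∃ k : ℕ, (s * t) ^ k * s * ((s * t) ^ k)⁻¹ = t := by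
  rcases Nat.even_or_odd (orderOf (s * t)) with h | h
  · exfalso
    obtain ⟨z, hz, hzs, hzt⟩ := cent_of_even (sq_of_ord hs) (sq_of_ord ht) h
    have h1 : z ∈ A := hc t htA ht (mem_centralizer_singleton_iff.2 hzt)
    exact hsA (hc z h1 hz (mem_centralizer_singleton_iff.2 hzs.symm))
  · exact conj_of_odd (sq_of_ord hs) (sq_of_ord ht) h

theorem exists_notMem [Finite T] [IsSimpleGroup T] {A : Subgroup T} (hA : A ≠ ⊤) (hev : ∃ t ∈ A, orderOf t = 2) :
    ∃ s : T, orderOf s = 2 ∧ s ∉ A := by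
  by_contra hcon
  push Not at hcon
  obtain ⟨t, -, ht⟩ := hev
  have h1 : normalClosure ({t} : Set T) ≤ A := by
    rw [normalClosure, closure_le]
    intro x hx
    rw [Group.mem_conjugatesOfSet_iff] at hx
    obtain ⟨a, ha, hx⟩ := hx
    rw [Set.mem_singleton_iff] at ha
    subst ha
    obtain ⟨g, hg⟩ := isConj_iff.1 hx
    apply hcon
    rw [← hg, ← ht]
    exact orderOf_injective (MulAut.conj g).toMonoidHom (MulAut.conj g).injective a
  rcases (normalClosure_normal (s := ({t} : Set T))).eq_bot_or_eq_top with h2 | h2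
  · have h3 : t ∈ normalClosure ({t} : Set T) := subset_normalClosure rfl
    rw [h2, mem_bot] at h3
    rw [h3, orderOf_one] at ht
    omega
  · exact hA (top_le_iff.1 (h2 ▸ h1))

/-- **All involutions are conjugate.** -/
theorem all_conj [Finite T] [IsSimpleGroup T] {A : Subgroup T} (hA : A ≠ ⊤) (hev : ∃ t ∈ A, orderOf t = 2)
    (hc : ∀ t ∈ A, orderOf t = 2 → centralizer ({t} : Set T) ≤ A) (s t : T) (hs : orderOf s = 2)
    (ht : orderOf t = 2) : IsConj s t := by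
  obtain ⟨s0, hs0, hs0A⟩ := exists_notMem hA hev
  obtain ⟨t0, ht0A, ht0⟩ := hev
  have hst : ∀ s t : T, orderOf s = 2 → s ∉ A → orderOf t = 2 → t ∈ A → IsConj s t := by
    intro s t hs hsA ht htA
    obtain ⟨k, hk⟩ := conj_step hc hs hsA ht htA
    exact isConj_iff.2 ⟨_, hk⟩
  have h0 : ∀ u : T, orderOf u = 2 → IsConj u t0 := by
    intro u hu
    by_cases huA : u ∈ A
    · exact (hst s0 u hs0 hs0A hu huA).symm.trans (hst s0 t0 hs0 hs0A ht0 ht0A)
    · exact hst u t0 hu huA ht0 ht0A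
  exact (h0 s hs).trans (h0 t ht).symm

/-- a central involution of a Sylow `2`-subgroup containing an involution -/
theorem exists_cen [Finite T] (P : Sylow 2 T) {t : T} (htP : t ∈ P) (ht : orderOf t = 2) :
    ∃ z ∈ P, orderOf z = 2 ∧ ∀ x ∈ P, z * x = x * z := by
  have hP : IsPGroup 2 P := P.isPGroup'
  have hnt : Nontrivial P := by
    refine ⟨⟨⟨t, htP⟩, 1, fun h => ?_⟩⟩
    have : t = 1 := congrArg Subtype.val h
    rw [this, orderOf_one] at ht
    omega
  have h1 : Nontrivial (Subgroup.center P) := hP.center_nontrivial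
  have h2 : IsPGroup 2 (Subgroup.center P) := hP.to_subgroup _
  obtain ⟨n, hn⟩ := (IsPGroup.iff_card (p := 2)).1 h2
  have h3 : 2 ∣ Nat.card (Subgroup.center P) := by
    rw [hn]
    rcases n with _ | n
    · rw [pow_zero] at hn
      exact absurd hn (Finite.one_lt_card_iff_nontrivial.2 h1).ne'
    · exact dvd_pow_self 2 (Nat.succ_ne_zero n)
  obtain ⟨z, hz⟩ := exists_prime_orderOf_dvd_card' 2 h3
  refine ⟨((z : P) : T), (z : P).2, ?_, fun x hx => ?_⟩
  · rw [Subgroup.orderOf_coe, Subgroup.orderOf_coe, hz]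
  · exact congrArg Subtype.val (Subgroup.mem_center_iff.1 z.2 ⟨x, hx⟩).symm

theorem sylow_le [Finite T] {A : Subgroup T} (hc : ∀ t ∈ A, orderOf t = 2 → centralizer ({t} : Set T) ≤ A)
    (P : Sylow 2 T) {t : T} (htP : t ∈ P) (ht : orderOf t = 2) (htA : t ∈ A) : (P : Subgroup T) ≤ A := by
  obtain ⟨z, -, hz, hzc⟩ := exists_cen P htP ht
  have h1 : z ∈ A := hc t htA ht (mem_centralizer_singleton_iff.2 (hzc t htP))
  exact fun x hx => hc z h1 hz (mem_centralizer_singleton_iff.2 (hzc x hx).symm)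

theorem exists_sylow [Finite T] {t : T} (ht : orderOf t = 2) : ∃ P : Sylow 2 T, t ∈ P := by
  have h1 : IsPGroup 2 (zpowers t) := by
    rw [IsPGroup.iff_card]
    exact ⟨1, by rw [Nat.card_zpowers, ht, pow_one]⟩
  obtain ⟨P, hP⟩ := h1.exists_le_sylow
  exact ⟨P, hP (mem_zpowers t)⟩

/-- Sylow's theorem inside a subgroup containing `P` -/
theorem exists_conj_le [Finite T] {A : Subgroup T} (P Q : Sylow 2 T) (hP : (P : Subgroup T) ≤ A)
    (hQ : (Q : Subgroup T) ≤ A) : ∃ a ∈ A, ∀ x : T, a * x * a⁻¹ ∈ P ↔ x ∈ Q := by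
  obtain ⟨a, ha⟩ := MulAction.exists_smul_eq A (Q.subtype hQ) (P.subtype hP)
  have h1 : a • Q = P := Sylow.subtype_injective ((Sylow.smul_subtype hQ a).symm.trans ha)
  refine ⟨a, a.2, fun x => ?_⟩
  rw [← h1]
  have h3 : (a • Q : Sylow 2 T) = ((MulAut.conj (a : T)) • Q : Sylow 2 T) := rfl
  rw [h3]
  show (a : T) * x * (a : T)⁻¹ ∈ ((MulAut.conj (a : T) • Q : Sylow 2 T) : Subgroup T) ↔ x ∈ Q
  rw [Sylow.pointwise_smul_def, Subgroup.mem_pointwise_smul_iff_inv_smul_mem]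
  have h4 : (MulAut.conj (a : T))⁻¹ • ((a : T) * x * (a : T)⁻¹) = x := by
    rw [← MulAut.conj_apply, inv_smul_eq_iff]
    rfl
  rw [h4]
  rfl

theorem ord_conj (g : T) {t : T} (ht : orderOf t = 2) : orderOf (g * t * g⁻¹) = 2 := by
  rw [← ht]
  exact orderOf_injective (MulAut.conj g).toMonoidHom (MulAut.conj g).injective t

/-- the involutions of a subgroup containing the Sylow subgroup `P` -/
theorem exists_into [Finite T] {L : Subgroup T} (P : Sylow 2 T) (hP : (P : Subgroup T) ≤ L) {t : T} (ht : orderOf t = 2)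
    (htL : t ∈ L) : ∃ a ∈ L, a * t * a⁻¹ ∈ P := by
  have h1 : orderOf (⟨t, htL⟩ : L) = 2 := by rw [← Subgroup.orderOf_coe]; exact ht
  have h2 : IsPGroup 2 (zpowers (⟨t, htL⟩ : L)) := by
    rw [IsPGroup.iff_card]
    exact ⟨1, by rw [Nat.card_zpowers, h1, pow_one]⟩
  obtain ⟨Q, hQ⟩ := h2.exists_le_sylow
  obtain ⟨a, ha⟩ := MulAction.exists_smul_eq L Q (P.subtype hP)
  refine ⟨a, a.2, ?_⟩
  have h3 : (⟨t, htL⟩ : L) ∈ Q := hQ (mem_zpowers _)
  have h4 : a * (⟨t, htL⟩ : L) * a⁻¹ ∈ P.subtype hP := by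
    rw [← ha]
    show a * (⟨t, htL⟩ : L) * a⁻¹ ∈ ((MulAut.conj a • Q : Sylow 2 L) : Subgroup L)
    rw [Sylow.pointwise_smul_def, Subgroup.mem_pointwise_smul_iff_inv_smul_mem]
    have h4 : (MulAut.conj a)⁻¹ • (a * (⟨t, htL⟩ : L) * a⁻¹) = (⟨t, htL⟩ : L) := by
      rw [← MulAut.conj_apply, inv_smul_eq_iff]
      rfl
    rw [h4]
    exact h3
  exact h4

/-- `N_T(P) ≤ A` -/
theorem norm_sylow_le [Finite T] {A : Subgroup T} (hc : ∀ t ∈ A, orderOf t = 2 → centralizer ({t} : Set T) ≤ A)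
    (hnorm : ∀ g : T, (∀ k ∈ closure {x : T | x ∈ A ∧ orderOf x = 2},
      g * k * g⁻¹ ∈ closure {x : T | x ∈ A ∧ orderOf x = 2}) → g ∈ A)
    (P : Sylow 2 T) (hP : (P : Subgroup T) ≤ A) {t : T} (htP : t ∈ P) (ht : orderOf t = 2) {g : T}
    (hg : ∀ x ∈ P, g * x * g⁻¹ ∈ P) : g ∈ A := by
  set L : Subgroup T := closure {x : T | ∃ u ∈ P, orderOf u = 2 ∧ x * u = u * x} with hL
  have hLA : L ≤ A := by
    rw [hL, closure_le]
    rintro x ⟨u, hu, hu2, hx⟩
    exact hc u (hP hu) hu2 (mem_centralizer_singleton_iff.2 hx)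
  obtain ⟨z, hzP, hz, hzc⟩ := exists_cen P htP ht
  have hPL : (P : Subgroup T) ≤ L := by
    intro x hx
    exact subset_closure ⟨z, hzP, hz, (hzc x hx).symm⟩
  have hgL : ∀ x ∈ L, g * x * g⁻¹ ∈ L := by
    have h1 : L ≤ L.comap (MulAut.conj g).toMonoidHom := by
      conv_lhs => rw [hL]
      rw [closure_le]
      rintro x ⟨u, hu, hu2, hx⟩
      show g * x * g⁻¹ ∈ L
      refine subset_closure ⟨g * u * g⁻¹, hg u hu, ord_conj g hu2, ?_⟩
      calc g * x * g⁻¹ * (g * u * g⁻¹) = g * (x * u) * g⁻¹ := by group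
        _ = g * (u * x) * g⁻¹ := by rw [hx]
        _ = _ := by group
    exact fun x hx => h1 hx
  have hcL : ∀ u ∈ L, orderOf u = 2 → centralizer ({u} : Set T) ≤ L := by
    intro u hu hu2
    obtain ⟨a, haL, ha⟩ := exists_into P hPL hu2 hu
    intro x hx
    rw [mem_centralizer_singleton_iff] at hx
    have h1 : a * x * a⁻¹ ∈ L := by
      refine subset_closure ⟨a * u * a⁻¹, ha, ord_conj a hu2, ?_⟩
      calc a * x * a⁻¹ * (a * u * a⁻¹) = a * (x * u) * a⁻¹ := by group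
        _ = a * (u * x) * a⁻¹ := by rw [hx]
        _ = _ := by group
    have h2 := L.mul_mem (L.mul_mem (L.inv_mem haL) h1) haL
    have h3 : a⁻¹ * (a * x * a⁻¹) * a = x := by group
    rwa [h3] at h2
  by_cases hcase : ∀ x ∈ A, orderOf x = 2 → x ∈ L
  · apply hnorm
    have h1 : closure {x : T | x ∈ A ∧ orderOf x = 2} ≤
        (closure {x : T | x ∈ A ∧ orderOf x = 2}).comap (MulAut.conj g).toMonoidHom := by
      conv_lhs => skip
      rw [closure_le]
      rintro x ⟨hxA, hx2⟩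
      show g * x * g⁻¹ ∈ closure {x : T | x ∈ A ∧ orderOf x = 2}
      exact subset_closure ⟨hLA (hgL x (hcase x hxA hx2)), ord_conj g hx2⟩
    exact fun k hk => h1 hk
  · push Not at hcase
    obtain ⟨s, hsA, hs, hsL⟩ := hcase
    obtain ⟨k1, h1⟩ := conj_step hcL hs hsL ht (hPL htP)
    obtain ⟨k2, h2⟩ := conj_step hcL hs hsL (ord_conj g ht) (hPL (hg t htP))
    have hm1 : (s * t) ^ k1 ∈ A := A.pow_mem (A.mul_mem hsA (hP htP)) _
    have hm2 : (s * (g * t * g⁻¹)) ^ k2 ∈ A := A.pow_mem (A.mul_mem hsA (hP (hg t htP))) _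
    set a := (s * t) ^ k1 with ha
    set b := (s * (g * t * g⁻¹)) ^ k2 with hb
    have h3 : b * a⁻¹ * t * (b * a⁻¹)⁻¹ = g * t * g⁻¹ := by
      have h4 : s = a⁻¹ * t * a := by rw [← h1]; group
      calc b * a⁻¹ * t * (b * a⁻¹)⁻¹ = b * (a⁻¹ * t * a) * b⁻¹ := by group
        _ = b * s * b⁻¹ := by rw [← h4]
        _ = _ := h2
    have h5 : (b * a⁻¹)⁻¹ * g ∈ A := by
      apply hc t (hP htP) ht
      rw [mem_centralizer_singleton_iff]
      have h6 : t = (b * a⁻¹)⁻¹ * (g * t * g⁻¹) * (b * a⁻¹) := by rw [← h3]; group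
      calc (b * a⁻¹)⁻¹ * g * t = ((b * a⁻¹)⁻¹ * (g * t * g⁻¹) * (b * a⁻¹)) * ((b * a⁻¹)⁻¹ * g) := by group
        _ = t * ((b * a⁻¹)⁻¹ * g) := by rw [← h6]
    have h7 := A.mul_mem (A.mul_mem hm2 (A.inv_mem hm1)) h5
    rwa [mul_inv_cancel_left] at h7

/-- **`A` is strongly embedded.** -/
theorem mem_of_conj_mem [Finite T] {A : Subgroup T} (hc : ∀ t ∈ A, orderOf t = 2 → centralizer ({t} : Set T) ≤ A)
    (hnorm : ∀ g : T, (∀ k ∈ closure {x : T | x ∈ A ∧ orderOf x = 2},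
      g * k * g⁻¹ ∈ closure {x : T | x ∈ A ∧ orderOf x = 2}) → g ∈ A)
    {t g : T} (ht : orderOf t = 2) (htA : t ∈ A) (hg : g * t * g⁻¹ ∈ A) : g ∈ A := by
  obtain ⟨P, htP⟩ := exists_sylow ht
  have hP := sylow_le hc P htP ht htA
  obtain ⟨Q, hQ⟩ := exists_sylow (ord_conj g ht)
  have hgP : g * t * g⁻¹ ∈ (MulAut.conj g • P : Sylow 2 T) := by
    show g * t * g⁻¹ ∈ ((MulAut.conj g • P : Sylow 2 T) : Subgroup T)
    rw [Sylow.pointwise_smul_def, Subgroup.mem_pointwise_smul_iff_inv_smul_mem]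
    have h4 : (MulAut.conj g)⁻¹ • (g * t * g⁻¹) = t := by
      rw [← MulAut.conj_apply, inv_smul_eq_iff]
      rfl
    rw [h4]
    exact htP
  have hPg := sylow_le hc (MulAut.conj g • P : Sylow 2 T) hgP (ord_conj g ht) hg
  obtain ⟨a, haA, ha⟩ := exists_conj_le P (MulAut.conj g • P : Sylow 2 T) hP hPg
  have h1 : a * g ∈ A := by
    apply norm_sylow_le hc hnorm P hP htP ht
    intro x hx
    have h2 : g * x * g⁻¹ ∈ (MulAut.conj g • P : Sylow 2 T) := by
      show g * x * g⁻¹ ∈ ((MulAut.conj g • P : Sylow 2 T) : Subgroup T)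
      rw [Sylow.pointwise_smul_def, Subgroup.mem_pointwise_smul_iff_inv_smul_mem]
      have h4 : (MulAut.conj g)⁻¹ • (g * x * g⁻¹) = x := by
        rw [← MulAut.conj_apply, inv_smul_eq_iff]
        rfl
      rw [h4]
      exact hx
    have h3 := (ha _).2 h2
    have h4 : a * (g * x * g⁻¹) * a⁻¹ = a * g * x * (a * g)⁻¹ := by group
    rwa [h4] at h3
  have h2 := A.mul_mem (A.inv_mem haA) h1
  rwa [inv_mul_cancel_left] at h2

end Cfsg.Agent.H677.SE
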